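import Cfsg.Agent.PLocal.FusSC

/-! Normalizer `p`-stability passes to central quotients for every odd prime. -/

set_option autoImplicit false

namespace CF.Fus

open Subgroup Cfsg CF.Transfer CF.PLocal
open scoped Matrix MatrixGroups commutatorElement

universe u

variable {G G' : Type*} [Group G] [Group G'] {p : ℕ} [hp : Fact p.Prime]

theorem not_nstab_of_module [Finite G] (hp2 : p ≠ 2) {Y : Type*} [Group Y] [Finite Y]
    (j : Y →* G) (ψ : Y →* SL(2, ZMod p)) (hψ : Function.Surjective ψ) (ρ : G →* G')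
    (π : (Fin 2 → ZMod p) → G') (hadd : ∀ u v, π (u + v) = π u * π v)
    (hinj : ∀ u, π u = 1 → u = 0)
    (heq : ∀ y u, π ((ψ y : Matrix (Fin 2) (Fin 2) (ZMod p)) *ᵥ u) = ρ (j y) * π u * (ρ (j y))⁻¹)
    {P : Subgroup G} (hP : IsPGroup p P) (hπ : ∀ u, π u ∈ P.map ρ) (hk : ρ.ker ≤ P)
    (hc : ρ.ker ≤ centralizer (P : Set G))
    (hj : ∀ y, (orderOf y).Coprime p → j y ∈ centralizer (ρ.ker : Set G)) :
    ¬ IsNormalizerPStable p G := by
  intro hst
  let π' : Multiplicative (Fin 2 → ZMod p) →* G' := MonoidHom.mk' (fun u => π u.toAdd) fun u v => hadd _ _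
  have hneg : ∀ u, π (-u) = (π u)⁻¹ := fun u => π'.map_inv (.ofAdd u)
  let R : Subgroup G := π'.range.comap ρ
  have mR : ∀ {r u}, ρ r = π u → r ∈ R := fun {r u} h => ⟨.ofAdd u, h.symm⟩
  have hRP : R ≤ P := by
    rintro r ⟨u, hu⟩
    have : r ∈ (P.map ρ).comap ρ := by rw [mem_comap, ← hu]; exact hπ _
    rwa [comap_map_eq_self hk] at this
  have hconj : ∀ y r u, ρ r = π u → ρ (j y * r * (j y)⁻¹) =
      π ((ψ y : Matrix (Fin 2) (Fin 2) (ZMod p)) *ᵥ u) := fun y r u hu => by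
    rw [heq, map_mul, map_mul, map_inv, hu]
  have hN : ∀ y, ∀ r ∈ R, j y * r * (j y)⁻¹ ∈ R := fun y r ⟨u, hu⟩ => mR (hconj y r _ hu.symm)
  obtain ⟨T, hT, t, ht, ht', hTy⟩ := exists_sylow_two_neg ψ hψ
  have hj' : ∀ s ∈ T, j s ∈ centralizer (ρ.ker : Set G) := fun s hs => hj s (by
    obtain ⟨k, hk'⟩ := (hT.to_le (zpowers_le.2 hs)).exists_card_eq
    rw [← Nat.card_zpowers, hk']
    exact Nat.Coprime.pow_left _ ((Nat.coprime_primes Nat.prime_two hp.out).2 hp2.symm))
  have hs : ∀ y ∈ normalizer (T : Set Y), ∀ r ∈ R,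
      j t * (j y * r * (j y)⁻¹) * (j t)⁻¹ = j y * (j t * r * (j t)⁻¹) * (j y)⁻¹ := fun y hy r hr => by
    set s := y * t * y⁻¹ * t⁻¹ with hsdef
    have h1 : s ∈ T := mul_mem ((mem_normalizer_iff.1 hy t).1 ht) (inv_mem ht)
    have h2 : ψ s = 1 := by
      simp only [hsdef, map_mul, map_inv, ht']
      rw [mul_neg_one, neg_mul, mul_inv_cancel, mul_inv_cancel]
    have h3 : j s ∈ centralizer (R : Set G) := by
      refine zpowers_le.1 (CF.Coprime.le_centralizer_of_stable (zpowers (j s)) R ρ.ker ?_ ?_ ?_)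
      · obtain ⟨k, hk'⟩ := (hT.map j).to_le (zpowers_le.2 (mem_map_of_mem j h1)) |>.exists_card_eq
        obtain ⟨l, hl⟩ := (hP.to_le hk).exists_card_eq
        rw [hk', hl]
        exact Nat.Coprime.pow _ _ ((Nat.coprime_primes Nat.prime_two hp.out).2 hp2.symm)
      · rw [← MonoidHom.map_zpowers, commutator_le]
        rintro r ⟨u, hu⟩ _ ⟨s', ⟨k, rfl⟩, rfl⟩
        have h3 := hconj (s ^ k) r⁻¹ (-u.toAdd) (by rw [map_inv, ← hu, hneg]; rfl)
        rw [map_zpow ψ, h2, one_zpow, Matrix.SpecialLinearGroup.coe_one, Matrix.one_mulVec] at h3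
        rw [MonoidHom.mem_ker, commutatorElement_def, mul_assoc, mul_assoc, ← mul_assoc (j _),
          map_mul, h3, ← hu, hneg]
        exact mul_inv_cancel _
      · exact le_centralizer_iff.1 (zpowers_le.2 (hj' s h1))
    have h4 := h3 _ (hN t _ (hN y r hr))
    simp only [hsdef, map_mul, map_inv] at h4
    rw [← mul_inv_eq_iff_eq_mul.2 h4.symm]
    group
  have sq : ∀ k ∈ ρ.ker, ∀ l ∈ ρ.ker, k * k = l * l → k = l := fun k h1 l h2 e => by
    refine mul_inv_eq_one.1 (eq_one_of_sq_of_isPGroup hp2 hP _ (hk (mul_mem h1 (inv_mem h2))) ?_)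
    rw [(show Commute k l⁻¹ from hc (inv_mem h2) k (hk h1)).mul_pow, sq, e, inv_pow, sq, mul_inv_cancel]
  let I : Set G := {r | r ∈ R ∧ j t * r * (j t)⁻¹ = r⁻¹}
  have hI : ∀ y ∈ normalizer (T : Set Y), ∀ r ∈ I, j y * r * (j y)⁻¹ ∈ I := fun y hy r hr =>
    ⟨hN y r hr.1, by rw [hs y hy r hr.1, hr.2]; group⟩
  have key : ∀ n ∈ I, ∀ m ∈ I, ∀ k ∈ ρ.ker, n * m * k ∈ I → k * k = ⁅m⁻¹, n⁻¹⁆ := by
    intro n hn m hm k h1 ⟨_, h2⟩
    have h3 : j t * (n * m * k) * (j t)⁻¹ = j t * n * (j t)⁻¹ * (j t * m * (j t)⁻¹) * k := by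
      rw [mul_assoc (j t * n * (j t)⁻¹), mul_assoc (j t * m), ← inv_mem (hj' t ht) k h1]; group
    rw [h3, hn.2, hm.2, hc h1 _ (hRP (mul_mem (inv_mem hn.1) (inv_mem hm.1)))] at h2
    calc k * k = k * (k * (n⁻¹ * m⁻¹)) * (m * n) := by group
      _ = _ := by rw [h2, commutatorElement_def]; group
  have uniq : ∀ n ∈ I, ∀ m ∈ I, ρ n = ρ m → n = m := fun n hn m hm e => by
    have h1 : n⁻¹ * m ∈ ρ.ker := by rw [MonoidHom.mem_ker, map_mul, map_inv, e, inv_mul_cancel]
    have h2 := key n hn 1 ⟨one_mem _, by simp⟩ _ h1 (by simpa using hm)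
    exact inv_mul_eq_one.1 (sq _ h1 1 (one_mem _) (by simpa using h2))
  have ex : ∀ u, ∃ n ∈ I, ρ n = π u := fun u => by
    obtain ⟨r, hr, e⟩ := hπ u
    have h1 : j t * r * (j t)⁻¹ * r ∈ ρ.ker := by
      rw [MonoidHom.mem_ker, map_mul, hconj t r u e, ht', e, Matrix.SpecialLinearGroup.coe_neg,
        Matrix.SpecialLinearGroup.coe_one, Matrix.neg_mulVec, Matrix.one_mulVec, hneg, inv_mul_cancel]
    set c := j t * r * (j t)⁻¹ * r with hcd
    obtain ⟨a, ha⟩ := hP ⟨c, hk h1⟩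
    obtain ⟨m, hm⟩ := (hp.out.odd_of_ne_two hp2).pow (n := a)
    have h2 : c ^ m * c ^ m * c = 1 := by
      rw [← pow_add, ← pow_succ, ← two_mul, ← hm]; exact congrArg Subtype.val ha
    have h3 := pow_mem h1 m
    have h4 : ρ (r * c ^ m) = π u := by rw [map_mul, e, h3, mul_one]
    refine ⟨_, ⟨mR h4, eq_inv_of_mul_eq_one_left ?_⟩, h4⟩
    calc j t * (r * c ^ m) * (j t)⁻¹ * (r * c ^ m) = j t * r * (c ^ m * (j t)⁻¹) * r * c ^ m := by group
      _ = j t * r * (j t)⁻¹ * (c ^ m * r) * c ^ m := by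
        rw [(inv_mem (hj' t ht)) _ h3]; group
      _ = c * (c ^ m * c ^ m) := by rw [← hc h3 r hr, hcd]; group
      _ = 1 := by rw [mul_eq_one_comm, h2]
  obtain ⟨y, hy, hy'⟩ := hTy (upT 1)
  have hy0 : ∀ r (a : ZMod p), ρ r = π ![a, 0] → ρ (j y * r * (j y)⁻¹) = ρ r := fun r a e => by
    rw [hconj y r _ e, hy', upT_mulVec, e]; simp
  have cK : ∀ r ∈ R, ∀ s ∈ R, ⁅r, s⁆ ∈ ρ.ker := by
    rintro r ⟨u, hu⟩ s ⟨v, hv⟩
    rw [MonoidHom.mem_ker, map_commutatorElement, ← hu, ← hv, ← map_commutatorElement,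
      commutatorElement_eq_one_iff_mul_comm.2 (mul_comm u v), map_one]
  have pw : ∀ r (k : ℕ), ρ r = π ![1, 0] → ρ (r ^ k) = π ![k, 0] := fun r k e => by
    rw [map_pow, e]
    refine (π'.map_pow (.ofAdd ![1, 0]) k).symm.trans (congrArg π ?_)
    ext i; fin_cases i <;> simp
  have ab : ∀ r s (a b : ZMod p), ρ r = π ![a, 0] → ρ s = π ![b, 0] → r * s = s * r := fun r s a b e e' => by
    obtain ⟨n, hn, en⟩ := hπ ![1, 0]
    have h : ∀ r (a : ZMod p), ρ r = π ![a, 0] → ∃ k ∈ ρ.ker, r = n ^ a.val * k := fun r a e =>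
      ⟨(n ^ a.val)⁻¹ * r, by rw [MonoidHom.mem_ker, map_mul, map_inv, pw n _ en, e]; simp, by simp⟩
    obtain ⟨k, h1, rfl⟩ := h r a e
    obtain ⟨l, h2, rfl⟩ := h s b e'
    have c : ∀ k ∈ ρ.ker, ∀ x ∈ P, Commute x k := fun k h x hx => hc h x hx
    exact Commute.mul_left (((Commute.refl n).pow_pow _ _).mul_right (c l h2 _ (pow_mem hn _)))
      ((c k h1 _ (pow_mem hn _)).symm.mul_right (c l h2 k (hk h1)))
  let D : Subgroup G :=
    { carrier := {r | (∃ a, ρ r = π ![a, 0]) ∧ j y * r * (j y)⁻¹ = r}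
      one_mem' := ⟨⟨0, by rw [map_one, ← π'.map_one]; exact congrArg π (by ext i; fin_cases i <;> rfl)⟩, by simp⟩
      mul_mem' := by
        rintro r s ⟨⟨a, h1⟩, h2⟩ ⟨⟨b, h3⟩, h4⟩
        exact ⟨⟨a + b, by rw [map_mul, h1, h3, ← hadd]; simp⟩, by rw [← conj_mul, h2, h4]⟩
      inv_mem' := by
        rintro r ⟨⟨a, h1⟩, h2⟩
        exact ⟨⟨-a, by rw [map_inv, h1, ← hneg]; simp⟩, by rw [← conj_inv, h2]⟩ }
  have sh : ∀ r ∈ R, ∃ b, ρ (r⁻¹ * (j y * r * (j y)⁻¹)) = π ![b, 0] := by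
    rintro r ⟨u, hu⟩
    refine ⟨u.toAdd 1, ?_⟩
    rw [map_mul, hconj y r _ hu.symm, map_inv, ← hu, hy', upT_mulVec]
    refine (congrArg (· * _) (hneg _).symm).trans ((hadd _ _).symm.trans (congrArg π ?_))
    ext i; fin_cases i <;> simp
  have dc : ∀ d ∈ D, ∀ r ∈ R, j y * ⁅d, r⁆ * (j y)⁻¹ = ⁅d, r⁆ := fun d ⟨⟨a, h1⟩, h2⟩ r hr => by
    obtain ⟨b, hb⟩ := sh r hr
    have h3 := ab _ _ a b h1 hb
    rw [conjugate_commutatorElement, h2, ← mul_inv_cancel_left r (j y * r * (j y)⁻¹)]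
    generalize r⁻¹ * (j y * r * (j y)⁻¹) = e at h3
    rw [commutatorElement_def, commutatorElement_def, mul_assoc _ _ d⁻¹, mul_assoc r, ← ((Commute.inv_left h3).eq)]
    group
  have dn : ∀ r ∈ R, ∀ d ∈ D, r * d * r⁻¹ ∈ D := fun r hr d hd => by
    have h1 := cK d⁻¹ (let ⟨_, h⟩ := (inv_mem hd).1; mR h) r hr
    have : ⁅d⁻¹, r⁆ ∈ D := ⟨⟨0, h1.trans (by
      rw [← π'.map_one]; exact congrArg π (by ext i; fin_cases i <;> rfl))⟩, dc _ (inv_mem hd) r hr⟩
    simpa [commutatorElement_def, mul_assoc] using mul_mem hd this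
  have hR1 : closure I ≤ R := (closure_le _).2 fun _ h => h.1
  have hE : ∀ r ∈ closure I, r⁻¹ * (j y * r * (j y)⁻¹) ∈ D := fun r hr => by
    induction hr using closure_induction with
    | one => simpa using one_mem D
    | mul r s hr hs h1 h2 =>
      have := mul_mem (dn _ (inv_mem (hR1 hs)) _ h1) h2
      convert this using 1; group
    | inv r hr h1 =>
      have := dn _ (hR1 hr) _ (inv_mem h1)
      convert this using 1; group
    | mem n hn =>
      obtain ⟨b, hb⟩ := sh n hn.1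
      obtain ⟨m, hm, e⟩ := ex ![b, 0]
      have h1 : m ∈ D := ⟨⟨b, e⟩, uniq _ (hI y hy m hm) _ hm (hy0 m b e)⟩
      have h2 : m⁻¹ * (n⁻¹ * (j y * n * (j y)⁻¹)) ∈ ρ.ker := by
        rw [MonoidHom.mem_ker, map_mul, hb, map_inv, e, inv_mul_cancel]
      have h3 := key n hn m hm _ h2 (by simpa [mul_assoc] using hI y hy n hn)
      refine ⟨⟨b, hb⟩, ?_⟩
      rw [← mul_inv_cancel_left m (n⁻¹ * _), ← conj_mul, h1.2, sq _ ((inferInstance : ρ.ker.Normal).conj_mem _ h2 _) _ h2
        (by rw [conj_mul, h3, dc _ (inv_mem h1) _ (inv_mem hn.1)])]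
  have hN1 : ∀ w ∈ normalizer (T : Set Y), j w ∈ normalizer (closure I : Set G) := fun w hw =>
    mem_normalizer_of_conj_mem fun r hr => by
      have : (closure I).map (MulAut.conj (j w)).toMonoidHom ≤ closure I := by
        rw [MonoidHom.map_closure]
        exact closure_mono (by rintro _ ⟨r, hr, rfl⟩; exact hI w hw r hr)
      exact this ⟨r, hr, rfl⟩
  have hq : ⁅⁅closure I, zpowers (j y)⁆, zpowers (j y)⁆ = ⊥ := by
    refine commutator_eq_bot_iff_le_centralizer.2 (le_trans (b := D) ?_ fun d hd => ?_)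
    · rw [commutator_le]
      rintro r hr _ ⟨k, rfl⟩
      have h1 := hE r hr
      have : ∀ k : ℤ, j y ^ k * r * (j y ^ k)⁻¹ = r * (r⁻¹ * (j y * r * (j y)⁻¹)) ^ k := fun k => by
        generalize hd : r⁻¹ * (j y * r * (j y)⁻¹) = d at h1
        have c : Commute (j y) d := mul_inv_eq_iff_eq_mul.1 h1.2
        have e : j y * r = r * (d * j y) := by rw [← hd]; group
        rw [mul_inv_eq_iff_eq_mul, mul_assoc, ← c.symm.mul_zpow]
        exact SemiconjBy.zpow_right (a := r) (show SemiconjBy r (d * j y) (j y) from e.symm) k |>.symm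
      have h2 := dn r (hR1 hr) _ (inv_mem (zpow_mem h1 k))
      rw [commutatorElement_def, mul_assoc, mul_assoc, ← mul_assoc (j y ^ k), ← conj_inv, this]
      convert h2 using 1; group
    · rintro _ ⟨l, rfl⟩
      exact ((Commute.zpow_left (mul_inv_eq_iff_eq_mul.1 hd.2) l)).eq
  obtain ⟨w, hw', hw⟩ := hTy (upT 1 * (loT 1)⁻¹)
  have h1 := nstab_iff_pairs.1 hst _ (hP.to_le (hR1.trans hRP)) (j y) (hN1 y hy) hq (j w) (hN1 w hw')
  rw [← map_inv, ← map_mul, ← map_mul, ← map_closure_pair, ← map_pRes, map_le_iff_le_comap] at h1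
  have h2 : (centralizer (closure I : Set G)).comap j ≤ ψ.ker := by
    intro x hx
    refine SL2_eq_one_of_mulVec fun u => ?_
    obtain ⟨r, hr', hr⟩ := ex u
    have h3 := hconj x r u hr
    rw [← hx r (subset_closure hr'), mul_inv_cancel_right, hr] at h3
    refine sub_eq_zero.1 (hinj _ ?_)
    rw [sub_eq_add_neg, hadd, hneg, ← h3, mul_inv_cancel]
  have h3 := h1.trans h2
  rw [← Subgroup.map_eq_bot_iff, map_pRes, pRes_eq_bot_iff, map_closure_pair] at h3
  refine not_isPGroup_of_upT_loT one_ne_zero (hy' ▸ left_mem_closure_pair _ _) ?_ h3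
  have h4 : (ψ (w * y * w⁻¹))⁻¹ = loT 1 := by
    rw [map_mul, map_mul, map_inv, hy', hw, inv_eq_iff_mul_eq_one]
    ext i j
    fin_cases i <;> fin_cases j <;>
      simp [upT_val, loT_val, Matrix.adjugate_fin_two, Matrix.mul_apply, Fin.sum_univ_two]
  exact h4 ▸ inv_mem (right_mem_closure_pair _ _)

theorem nstab_aux [Finite G] (h5 : p ≠ 2) (hst : IsNormalizerPStable p G)
    {P P₀ : Subgroup G} [P.Normal] [P₀.Normal] (hP : IsPGroup p P) (h0 : P₀ ≤ P)
    (hc : P₀ ≤ centralizer (P : Set G)) (hΦ : (frattini P).map P.subtype ≤ P₀) {a b : G}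
    (ha : ⁅⁅P, zpowers a⁆, zpowers a⁆ ≤ P₀) (hb : ⁅⁅P, zpowers b⁆, zpowers b⁆ ≤ P₀)
    (hX : pRes p (closure {a, b}) ≤ centralizer (P₀ : Set G)) :
    pRes p (closure {a, b}) ≤ centralizer (P : Set G) := by
  have hp2 := h5
  have : (P.map (QuotientGroup.mk' P₀)).Normal :=
    Normal.map inferInstance _ (QuotientGroup.mk'_surjective _)
  have hEA : IsElementaryAbelian p (P.map (QuotientGroup.mk' P₀)) := by
    constructor
    · rw [← le_centralizer_iff_isMulCommutative, ← commutator_eq_bot_iff_le_centralizer,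
        ← map_commutator, CF.Solv.map_mk'_eq_bot_iff]
      exact (CF.Solv.commutator_le_map_frattini hP).trans hΦ
    · rintro _ ⟨x, hx, rfl⟩
      rw [← map_pow, QuotientGroup.mk'_apply, QuotientGroup.eq_one_iff]
      exact hΦ (CF.Solv.pow_mem_map_frattini hP hx)
  rcases quad_pair_EA hEA (a := QuotientGroup.mk' _ a)
    (b := QuotientGroup.mk' _ b) (le_normalizer_of_normal (mem_top _))
    (le_normalizer_of_normal (mem_top _))
    (map_commutator_zpowers_zpowers _ (by rwa [QuotientGroup.ker_mk']))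
    (map_commutator_zpowers_zpowers _ (by rwa [QuotientGroup.ker_mk'])) with h | h
  · refine pRes_le_centralizer_of_commutator hP le_normalizer_of_normal
      (le_trans ?_ (le_centralizer_iff.1 hX))
    rwa [← map_closure_pair, ← map_pRes, le_centralizer_iff, ← commutator_eq_bot_iff_le_centralizer,
      ← map_commutator, CF.Solv.map_mk'_eq_bot_iff] at h
  exfalso
  obtain ⟨X, hXle, ψ, hψ, π, hπ, hadd, hinj, heq⟩ := h.exists_module hp2
  set H := closure ({a, b} : Set G) with hH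
  let X₁ : Subgroup G := X.comap (QuotientGroup.mk' P₀) ⊓ H
  let σ : X₁ →* X := ((QuotientGroup.mk' P₀).comp X₁.subtype).codRestrict X fun x => x.2.1
  have hσ : Function.Surjective σ := by
    rintro ⟨x, hx⟩
    have := hXle hx
    rw [← map_closure_pair] at this
    obtain ⟨y, hy, rfl⟩ := this
    exact ⟨⟨y, hx, hy⟩, rfl⟩
  refine not_nstab_of_module hp2 X₁.subtype (ψ.comp σ) (hψ.comp hσ) (QuotientGroup.mk' P₀) π hadd hinj
    (fun y u => heq (σ y) u) hP hπ (by rwa [QuotientGroup.ker_mk'])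
    (by rwa [QuotientGroup.ker_mk']) (fun y hy => ?_) hst
  rw [QuotientGroup.ker_mk']
  refine hX (pRes_mono (inf_le_right : X₁ ≤ H) ?_)
  rw [← map_pResidual_subtype]
  exact mem_map_of_mem _ (mem_pResidual_of_coprime hy)

theorem nstab_cent [Finite G] (h5 : p ≠ 2) (hst : IsNormalizerPStable p G) {a b : G}
    (P : Subgroup G) : IsPGroup p P → closure {a, b} ≤ normalizer (P : Set G) →
      ⁅⁅P, zpowers a⁆, zpowers a⁆ ≤ centralizer (pRes p (closure {a, b}) : Set G) →
      ⁅⁅P, zpowers b⁆, zpowers b⁆ ≤ centralizer (pRes p (closure {a, b}) : Set G) →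
      pRes p (closure {a, b}) ≤ centralizer (P : Set G) := by
  induction P using WellFoundedLT.induction with
  | ind P ih => ?_
  intro hP hN ha hb
  set H := closure ({a, b} : Set G) with hH
  set X := pRes p H with hX
  have ih' : ∀ R < P, H ≤ normalizer (R : Set G) → X ≤ centralizer (R : Set G) := fun R hR hRN =>
    ih R hR (hP.to_le hR.le) hRN
      ((commutator_mono (commutator_mono hR.le le_rfl) le_rfl).trans ha)
      ((commutator_mono (commutator_mono hR.le le_rfl) le_rfl).trans hb)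
  have hXN : X ≤ normalizer (P : Set G) := (pRes_le H).trans hN
  by_cases hPX : ⁅P, X⁆ = P
  swap
  · exact pRes_le_centralizer_of_commutator hP hN (le_centralizer_iff.1 (ih' _
      (lt_of_le_of_ne (commutator_le_left_of_le_normalizer hXN) hPX)
      (le_normalizer_commutator hN (le_normalizer_pRes H))))
  by_cases hP0 : P = ⊥
  · rw [hP0, le_centralizer_iff]; exact bot_le
  set P₀ := P ⊓ centralizer (X : Set G) with hP₀
  have hΦ : (frattini P).map P.subtype ≤ P₀ := le_inf (map_subtype_le _) (le_centralizer_iff.1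
    (ih' _ (CF.Solv.map_frattini_lt hP0) (hN.trans (normalizer_le_normalizer_of_characteristic
      (map_subtype_le _) (by
        rw [subgroupOf, comap_map_eq_self_of_injective P.subtype_injective]; infer_instance)))))
  have hPP : ⁅P, P⁆ ≤ P₀ := (CF.Solv.commutator_le_map_frattini hP).trans hΦ
  have hc : P₀ ≤ centralizer (P : Set G) := by
    rw [le_centralizer_iff, ← commutator_eq_bot_iff_le_centralizer]
    nth_rewrite 1 [← hPX]
    refine commutator_commutator_eq_bot_of_rotate ?_ ?_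
    · rw [commutator_comm X, commutator_eq_bot_iff_le_centralizer.2 inf_le_right, commutator_bot_left]
    · exact commutator_eq_bot_iff_le_centralizer.2
        (((commutator_mono inf_le_left le_rfl).trans hPP).trans inf_le_right)
  set L := P ⊔ H with hL
  have hLP : L ≤ normalizer (P : Set G) := sup_le le_normalizer hN
  have hLP₀ : L ≤ normalizer (P₀ : Set G) := sup_le
    ((le_centralizer_iff.1 hc).trans (centralizer_le_normalizer _))
    (le_normalizer_inf hN (le_normalizer_centralizer (le_normalizer_pRes H)))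
  have := normal_subgroupOf_of_le_normalizer hLP
  have := normal_subgroupOf_of_le_normalizer hLP₀
  have haL : a ∈ L := mem_sup_right (left_mem_closure_pair a b)
  have hbL : b ∈ L := mem_sup_right (right_mem_closure_pair a b)
  have hPL : P ≤ L := le_sup_left
  have hq : ∀ c (hc : c ∈ L), c ∈ normalizer (P : Set G) →
      ⁅⁅P, zpowers c⁆, zpowers c⁆ ≤ centralizer (X : Set G) →
      ⁅⁅P.subgroupOf L, zpowers (⟨c, hc⟩ : L)⁆, zpowers (⟨c, hc⟩ : L)⁆ ≤ P₀.subgroupOf L := by
    intro c hc h1 h2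
    rw [subgroupOf, subgroupOf, ← map_le_iff_le_comap, map_commutator, map_commutator,
      map_comap_eq_self (by rwa [range_subtype]), MonoidHom.map_zpowers]
    have h3 : zpowers c ≤ normalizer (P : Set G) := zpowers_le.2 h1
    exact le_inf ((commutator_mono (commutator_le_left_of_le_normalizer h3) le_rfl).trans
      (commutator_le_left_of_le_normalizer h3)) h2
  have hX' : (pRes p (closure {(⟨a, haL⟩ : L), ⟨b, hbL⟩})).map L.subtype = X := by
    rw [map_pRes, map_closure_pair]; rfl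
  have h1 := nstab_aux h5 (nstab_subgroup hst L) (P := P.subgroupOf L)
    (P₀ := P₀.subgroupOf L) (isPGroup_subgroupOf hP L) (comap_mono inf_le_left)
    (by rw [centralizer_subgroupOf hPL]; exact comap_mono hc) (by
      rw [CF.Solv.map_frattini_le_iff (isPGroup_subgroupOf hP L)]
      refine ⟨?_, fun x hx => hΦ (CF.Solv.pow_mem_map_frattini hP hx)⟩
      rw [subgroupOf, subgroupOf, ← map_le_iff_le_comap, map_commutator,
        map_comap_eq_self (by rwa [range_subtype])]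
      exact hPP)
    (hq a haL (hLP haL) ha) (hq b hbL (hLP hbL) hb) (by
      rw [centralizer_subgroupOf (inf_le_left.trans hPL), subgroupOf, ← map_le_iff_le_comap, hX']
      exact le_centralizer_iff.1 inf_le_right)
  rwa [centralizer_subgroupOf hPL, subgroupOf, ← map_le_iff_le_comap, hX'] at h1

/-- For odd `p` stability passes to quotients by normal `p`-subgroups centralized by `O^p(G)`. -/
theorem nstab_quot [Finite G] (h5 : p ≠ 2) (hst : IsNormalizerPStable p G)
    (Q : Subgroup G) [Q.Normal] (hQ : IsPGroup p Q)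
    (hc : pResidual p G ≤ centralizer (Q : Set G)) : IsNormalizerPStable p (G ⧸ Q) := by
  rw [nstab_iff_pairs]
  intro P' hP' g hg hq x hx
  obtain ⟨g, rfl⟩ := QuotientGroup.mk'_surjective Q g
  obtain ⟨x, rfl⟩ := QuotientGroup.mk'_surjective Q x
  rw [← mem_comap, comap_normalizer_eq_of_surjective _ (QuotientGroup.mk'_surjective Q)] at hg hx
  set P := P'.comap (QuotientGroup.mk' Q) with hPdef
  have hP : IsPGroup p P := hP'.comap_of_ker_isPGroup _ (by rwa [QuotientGroup.ker_mk'])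
  have e : P.map (QuotientGroup.mk' Q) = P' := CF.Solv.map_comap_mk' _ _
  have hq' := quadratic_conj' (V := P') (g := QuotientGroup.mk' Q x)
    (e ▸ le_normalizer_map _ (mem_map_of_mem _ hx)) hq
  rw [← map_inv, ← map_mul, ← map_mul] at hq' ⊢
  rw [← e, ← MonoidHom.map_zpowers, ← map_commutator, ← map_commutator,
    CF.Solv.map_mk'_eq_bot_iff] at hq hq'
  have h1 : Q ≤ centralizer (pRes p (closure {g, x * g * x⁻¹}) : Set G) :=
    le_centralizer_iff.1 ((pRes_le_pResidual _).trans hc)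
  rw [← map_closure_pair, ← map_pRes, ← e]
  exact (map_mono (nstab_cent h5 hst P hP (closure_pair_le.2
    ⟨hg, mul_mem (mul_mem hx hg) (inv_mem hx)⟩) (hq.trans h1) (hq'.trans h1))).trans
    (map_centralizer_le _ _)

theorem ctrl_of_nstab {G : Type u} [Group G] [Finite G] (W : CharFunctor.{u} p) (h2 : p ≠ 2) (hW : W.ZJType)
    (h : IsNormalizerPStable p G) {S D : Subgroup G} (hS : IsSylowIn p S ⊤) (hD : IsStronglyClosed D S) :
    CtrlIn (MulRel (normalizer (W.W D : Set G))) S ⊤ :=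
  W.ctrl_sc (fun G _ => IsNormalizerPStable p G) (fun _ _ _ H h => nstab_subgroup h H)
    (fun _ _ _ N _ hN h => nstab_quotient_coprime h N hN)
    (fun _ _ _ N _ h1 h3 h => nstab_quot h2 h N h1 h3)
    (fun G _ _ h => hW G (stabP_of_isNormalizerPStable h)) G h S D hS hD

end CF.Fus
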