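import Cfsg.Agent.Fus.NStab3
import Cfsg.Agent.Fus.Comp
import Cfsg.Agent.Fus.Loc
import Cfsg.Agent.Fus.Real
import Cfsg.Agent.Fus.Solv

/-! Fusion systems of normalizer `p`-stable groups are constrained (`p` odd). -/

set_option autoImplicit false

namespace CF.Fus
open Cfsg Cfsg.FusionSystem Subgroup

universe u v

variable {Ω : Type v} {G : Type u} [Group Ω] [Group G] {S : Subgroup Ω} {F : FusionSystem S} {p : ℕ}
  [Fact p.Prime] {t : Ω → G}

theorem Real.core_ne_of_nstab [Finite G] (h : Real F p t ⊤) (hp : p ≠ 2) (hst : IsNormalizerPStable p G)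
    (hS : S ≠ ⊥) : F.core ≠ ⊥ := by
  haveI := h.sat.fin
  let W := CF.PLocal.centerThompsonF.{u} p 0 (CF.PLocal.dvd_of_eq_zero_or (Or.inl rfl))
  have c := ctrl_of_nstab W hp (CF.PLocal.zjType_centerThompson hp (Or.inl rfl)) hst h.syl.isSylowIn
    (CF.PLocal.sc_self _)
  have d := W.le (img t S)
  have n : (FG ⊤ (img t S) h.syl.le).IsNormal (W.W (img t S)) := normal_iff.2 ⟨d, fun P f hf => by
    obtain ⟨s, hs, e⟩ := morG_elt hf
    obtain ⟨n, hn, e'⟩ := CF.Transfer.mulRel_iff.1 (c P hf.le s hs (by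
      rintro _ ⟨x, hx, rfl⟩; exact (congrArg (· ∈ img t S) (e x hx)).mp (hf.maps hx)))
    exact ⟨cj n, morG_cj _ (sup_le hf.le d) (mem_top _) ((mulOn_cj n _).maps_sup (fun x hx => by
      rw [cj_apply, e' x hx, ← e x hx]; exact hf.maps hx) fun x hx => d (conj_mem_of_norm hn hx)),
      fun x hx => (e' x hx).trans (e x hx).symm, img_cj_eq_self.2 hn⟩⟩
  intro e
  refine W.ne_bot _ h.syl.pg (fun e' => hS (eq_bot_iff.2 fun s hs => h.inj s hs ?_))
    (le_bot_iff.1 ((le_core n).trans ?_))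
  · exact mem_bot.1 (e' ▸ mem_img_of_mem hs)
  · rw [← h.iso.img_core, e]; exact img_le_iff.2 fun x hx => by
      rw [mem_bot.1 hx]; exact mem_bot.2 h.mul.map_one

theorem Real.constrained_of_nstab [Finite G] (h : Real F p t ⊤) (hp : p ≠ 2) (hst : IsNormalizerPStable p G) :
    F.IsConstrained p := by
  have hF := h.sat
  haveI := hF.fin
  have hQ := core_normal F
  have hc := hF.fc_of_fn (normal_fn hQ)
  have hC := hF.cenF hc
  have r := (h.isCS hc (isCS_cenF F hQ.1)).restrict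
  have z : (cenF F hQ.1).IsCentral (CS S F.core ⊓ F.core) := isCS_central (isCS_cenF F hQ.1) inf_le_right inf_le_left
  obtain ⟨L, _, v, E, h1, h2, h3⟩ := hC.exists_quot (sc_of_normal (normal_of_central z))
  haveI := h3.fin
  set K := CS ⊤ (img t F.core)
  set Z := img (toSub K ∘ t) (CS S F.core ⊓ F.core)
  have a : ∀ g : K, ∀ y ∈ Z, g * y = y * g := fun g y hy => by
    obtain ⟨x, hx, rfl⟩ := (r.mem_img inf_le_left).1 hy
    refine Subtype.ext ?_
    have := (h.isCS hc (isCS_cenF F hQ.1)).maps hx.1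
    show (g : G) * toSub K (t x) = toSub K (t x) * g
    rw [coe_toSub this]
    exact ((mem_CS.1 g.2).2 _ (mem_img_of_mem hx.2)).symm
  haveI : Z.Normal := ⟨fun y hy g => by rw [a g y hy, mul_inv_cancel_right]; exact hy⟩
  obtain ⟨w, hw, -⟩ := r.fac h1.toFac (mulOn_hom (QuotientGroup.mk' Z) ⊤) fun s hs => by
    rw [QuotientGroup.mk'_apply, QuotientGroup.eq_one_iff]
    refine ⟨fun b => ?_, fun b => mem_img_of_mem (h2 ▸ h1.mul.mem_pre.2 ⟨hs, b⟩)⟩
    obtain ⟨x, hx, e⟩ := (r.mem_img inf_le_left).1 b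
    rw [← r.inj' hx.1 hs e]
    exact mem_bot.1 (h1.mul.mem_pre.1 (h2.ge hx)).2
  rw [img_hom, map_top_of_surjective _ (QuotientGroup.mk'_surjective Z)] at hw
  refine hF.constrained_iff.2 (by_contra fun b => ?_)
  refine hw.core_ne_of_nstab hp (nstab_quot hp (CF.PLocal.nstab_subgroup hst K) Z
    (r.syl.pg.to_le (img_mono inf_le_left)) fun g _ y hy => (a g y hy).symm) (fun e => b ?_) ?_
  · refine le_trans (fun s hs => h2.le (h1.mul.mem_pre.2 ⟨hs, e.le (mem_top _)⟩)) inf_le_right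
  · have c := le_core (hC.normal_pre h1 (h2 ▸ normal_of_central z) (h2 ▸ ?_) (core_normal E))
    · have d := le_inf pre_le (c.trans (le_core (hF.normal_core_of_inv (hF.nrm_cenF hQ).toInv)))
      rwa [← h2, h1.mul.pre_le_pre_iff (le_top.trans h1.img_eq.ge), le_bot_iff] at d
    · exact fun α => ⟨0, Subtype.ext (MulEquiv.ext fun x => Subtype.ext (by
        simpa using central_fix z (mor_fn z.1 α.2) x.2 x.2))⟩

end CF.Fus
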